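import Cfsg.Agent.H650.OT.Mod
import Cfsg.Agent.H460.OT.Conc
import Cfsg.Agent.Nodes.PosPair

/-!
# S2539, 0.2: `S_F` is closed (helper650)
-/

set_option autoImplicit false

namespace Cfsg.Agent.H650.OT

open Cfsg Cfsg.Lie Cfsg.Lie.ChevalleyDatum CoxeterSystem
open Cfsg.Agent.ChevalleyStructure Cfsg.Agent.ChevalleyStructure.Elts Cfsg.Agent.ChevalleyStructure.RootVec
open Cfsg.Agent.ChevalleyStructure.RootVecTab (Checked)
open Cfsg.Agent.Tits.Roots Cfsg.Agent.Tits.Core Cfsg.Agent.Nodes.RGDChev Cfsg.Agent.Nodes.BNOf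
open Cfsg.Agent.ChevalleyStructure.CoxeterGeom
open Cfsg.Agent.H412.OT Cfsg.Agent.H460.OT
open scoped commutatorElement

universe u

variable {D : ChevalleyDatum} {K : Type u} [Field K]

/-- the roots `i r + j s`, `i, j ≥ 1`, `i + j ≥ n` -/
def Rn (D : ChevalleyDatum) (r s n : ℕ) : Set ℕ :=
  {k | k < D.nroots ∧ ∃ i j : ℕ, 1 ≤ i ∧ 1 ≤ j ∧ n ≤ i + j ∧ ∀ a, rt D k a = i * rt D r a + j * rt D s a}

theorem Rn_sub (r s n : ℕ) : Rn D r s n ⊆ {r | r < D.nroots} := fun _ hk => hk.1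

theorem Rn_closed (hch : Checked D) (r s n : ℕ) : Closed D (Rn D r s n) := by
  rintro k ⟨hk, i, j, hi, hj, hn, he⟩ k' ⟨hk', i', j', hi', hj', hn', he'⟩ u hu
  obtain ⟨h1, -, -, h2⟩ := chainRoot_rt hch le_rfl hu
  refine ⟨h1, i + i', j + j', by omega, by omega, by omega, fun a => ?_⟩
  rw [h2, he, he']
  push_cast
  ring

/-- The commutator word: first term and the rest. -/
theorem commTerms_cons {r s u : ℕ} (hu : D.chainRoot r s 1 = some u) :
    ∃ R : List (ℕ × ℤ × ℕ × ℕ), D.commTerms r s = (u, D.chainM r s 1, 1, 1) :: R ∧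
      ∀ c ∈ R, 3 ≤ c.2.2.1 + c.2.2.2 := by
  have hdef : D.commTerms r s = ([ (D.chainRoot r s 1, D.chainM r s 1, 1, 1),
      (D.chainRoot r s 2, D.chainM r s 2, 2, 1),
      (D.chainRoot s r 2, D.chainM s r 2, 1, 2),
      (D.chainRoot r s 3, D.chainM r s 3, 3, 1),
      (D.chainRoot s r 3, - D.chainM s r 3, 1, 3),
      ((D.chainRoot r s 3).bind fun k => D.chainRoot k s 1, ((D.chainRoot r s 1).map fun k => D.chainM k r 2 / 3).getD 0, 3, 2),
      ((D.chainRoot s r 3).bind fun k => D.chainRoot k r 1, ((D.chainRoot r s 1).map fun k => -2 * D.chainM k s 2 / 3).getD 0, 2, 3) ] :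
      List (Option ℕ × ℤ × ℕ × ℕ)).filterMap fun c => c.1.map fun k => (k, c.2) := rfl
  rw [hdef, List.filterMap_cons_some (b := (u, D.chainM r s 1, 1, 1)) (by rw [hu]; rfl)]
  refine ⟨_, rfl, ?_⟩
  intro c hc
  rw [List.mem_filterMap] at hc
  obtain ⟨c', hc', he⟩ := hc
  rw [Option.map_eq_some_iff] at he
  obtain ⟨k, -, rfl⟩ := he
  simp only [List.mem_cons, List.mem_nil_iff, or_false] at hc'
  rcases hc' with rfl | rfl | rfl | rfl | rfl | rfl <;> norm_num

variable [Fintype K] {p : ℕ} [Fact p.Prime] [CharP K p]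

/-- **`S_F` is closed.** -/
theorem SF_closed (h : Hyp K p D) {F : Subgroup (GL D.Idx K)}
    (hFG : F ≤ D.group K) : Closed D (SF D K F) := by
  intro r hr s hs u hu
  have hD := h.inList
  have hD7 : D ∈ [chevG2, chevB2, chevD4, chevF4, chevE6, chevE7, chevE8] := by
    have := h.mem
    simp only [List.mem_cons, List.not_mem_nil, or_false] at this ⊢
    tauto
  have hK : 13 ≤ Nat.card K := by rw [Nat.card_eq_fintype_card]; exact h.card
  have hch : Checked D := RootVecTab.checked_of_mem hD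
  obtain ⟨l, M, hp⟩ := exists_type hD7
  have hfin : Finite M.Group := finite_W hp M.toCoxeterSystem
  obtain ⟨hu1, hr1, hs1, hu2⟩ := chainRoot_rt hch le_rfl hu
  obtain ⟨m, hmp, hm, hm'⟩ := exists_bound h
  by_contra hcon
  -- `s ≠ ± r`
  have hrr := isRoot_vec hp M.toCoxeterSystem hr1
  have hsr := isRoot_vec hp M.toCoxeterSystem hs1
  have hur := isRoot_vec hp M.toCoxeterSystem hu1
  have hvu : vec D l u = vec D l r + vec D l s := by
    funext a
    rw [Pi.add_apply, vec_apply, vec_apply, vec_apply, hu2]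
    push_cast
    ring
  have hne : s ≠ r := by
    rintro rfl
    have h1 : vec D l u = (2 : ℤ) • vec D l s := by rw [hvu, two_smul]
    have h2 := isUnit_of_smul M.toCoxeterSystem hp.isCartan hur 2 h1
    rw [Int.isUnit_iff] at h2
    omega
  have hneg : vec D l r ≠ -vec D l s := by
    intro h1
    apply hur.ne_zero
    rw [hvu, h1, neg_add_cancel]
  have hneg' : s ≠ D.neg r := by
    rintro rfl
    apply hneg
    rw [vec_neg hp hr1, _root_.neg_neg]
  -- the p-group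
  have R := rgd_GL (K := K) hp M.toCoxeterSystem p
  let Q : Subgroup (GL D.Idx K) := D.rootSubgroup K r ⊔ D.rootSubgroup K s
  have hQp : IsPGroup p ↥Q := by
    have h1 := Cfsg.Agent.Nodes.PosPair.isPGroup_pair R hrr hsr hneg
    refine h1.to_le ?_
    rw [XV_vec hp K hr1, XV_vec hp K hs1]
    exact le_sup_left
  have hQF : Q ≤ F := sup_le hr.2 hs.2
  have hTX : ∀ k, k < D.nroots → ∀ t ∈ D.diagonalSubgroup K, ∀ x ∈ D.rootSubgroup K k,
      t * x * t⁻¹ ∈ D.rootSubgroup K k := fun k hk t ht x hx => tor_conj_root hD ht hk hx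
  have hnorm : ∀ (S : Set ℕ), S ⊆ {r | r < D.nroots} → ∀ t ∈ D.diagonalSubgroup K,
      ∀ x ∈ (⨆ k ∈ S, D.rootSubgroup K k : Subgroup (GL D.Idx K)),
      t * x * t⁻¹ ∈ (⨆ k ∈ S, D.rootSubgroup K k : Subgroup (GL D.Idx K)) := by
    intro S hS t ht x hx
    have h1 : (⨆ k ∈ S, D.rootSubgroup K k : Subgroup (GL D.Idx K)) ≤
        (⨆ k ∈ S, D.rootSubgroup K k : Subgroup (GL D.Idx K)).comap (MulAut.conj t).toMonoidHom := by
      refine iSup₂_le fun k hk => ?_
      intro y hy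
      exact (le_iSup₂ (f := fun k (_ : k ∈ S) => D.rootSubgroup K k) k hk)
        (hTX k (hS hk) t ht y hy)
    exact h1 hx
  let V : Subgroup (GL D.Idx K) := ⨆ k ∈ Rn D r s 2, D.rootSubgroup K k
  let P : Subgroup (GL D.Idx K) := Q ⊓ V
  have hQsup : Q = (⨆ k ∈ ({r, s} : Set ℕ), D.rootSubgroup K k : Subgroup (GL D.Idx K)) := by
    rw [iSup_pair]
  have hPn : D.diagonalSubgroup K ≤ Subgroup.normalizer (P : Set (GL D.Idx K)) := by
    have h1 : ∀ t ∈ D.diagonalSubgroup K, ∀ x ∈ P, t * x * t⁻¹ ∈ P := by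
      rintro t ht x ⟨hx1, hx2⟩
      refine ⟨?_, hnorm _ (Rn_sub r s 2) t ht x hx2⟩
      have h2 : x ∈ (⨆ k ∈ ({r, s} : Set ℕ), D.rootSubgroup K k : Subgroup (GL D.Idx K)) := by
        rw [← hQsup]; exact hx1
      have h3 := hnorm {r, s} (by
        rintro k (rfl | hk)
        · exact hr1
        · rw [Set.mem_singleton_iff] at hk; rw [hk]; exact hs1) t ht x h2
      rw [← hQsup] at h3
      exact h3
    intro t ht
    rw [Subgroup.mem_normalizer_iff]
    intro x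
    constructor
    · exact h1 t ht x
    · intro hx
      have h2 := h1 t⁻¹ (inv_mem ht) _ hx
      have h3 : t⁻¹ * (t * x * t⁻¹) * t⁻¹⁻¹ = x := by group
      rwa [h3] at h2
  have hPG : P ≤ D.group K := (inf_le_left.trans hQF).trans hFG
  have hC1 := inv_pgroup (p := p) hD7 hK hPG (hQp.to_le inf_le_left) hPn
  -- the roots in `P`
  have hP3 : P ≤ GS D K (Rn D r s 3) := by
    rw [hC1]
    refine iSup₂_le fun k hk => ?_
    have hk2 : k ∈ Rn D r s 2 := by
      refine mem_of_root_le h (Rn_sub r s 2) (Rn_closed hch r s 2) hk.1 ?_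
      exact (hk.2.trans inf_le_right).trans le_sup_right
    obtain ⟨hk1, i, j, hi, hj, hij, he⟩ := hk2
    have hk3 : k ∈ Rn D r s 3 := by
      refine ⟨hk1, i, j, hi, hj, ?_, he⟩
      by_contra hij3
      have hi1 : i = 1 := by omega
      have hj1 : j = 1 := by omega
      subst hi1 hj1
      have hku : k = u := rt_inj hch hk1 hu1 (fun a _ => by rw [he, hu2]; push_cast; ring)
      subst hku
      exact hcon ⟨hk1, (hk.2.trans inf_le_left).trans hQF⟩
    exact (le_iSup₂ (f := fun k (_ : k ∈ Rn D r s 3) => D.rootSubgroup K k) k hk3).trans le_sup_right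
  -- the commutator
  obtain ⟨L, hL, hL3⟩ := commTerms_cons (D := D) hu
  have hcomm := comm_xG hp (K := K) hr1 hs1 hne hneg' 1 1
  have hword : D.commWord K r s 1 1 = (u, (D.chainM r s 1 : K) * (-1) ^ 1 * 1 ^ 1) ::
      L.map (fun c => (c.1, (c.2.1 : K) * (-1) ^ c.2.2.1 * 1 ^ c.2.2.2)) := by
    have hdef : D.commWord K r s 1 1 =
      (D.commTerms r s).map fun c => (c.1, (c.2.1 : K) * (-1) ^ c.2.2.1 * 1 ^ c.2.2.2) := rfl
    rw [hdef, hL, List.map_cons]
  have hrest : wordG hp.inList (L.map (fun c => (c.1, (c.2.1 : K) * (-1) ^ c.2.2.1 * 1 ^ c.2.2.2))) ∈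
      (⨆ k ∈ Rn D r s 3, D.rootSubgroup K k : Subgroup (GL D.Idx K)) := by
    refine wordG_mem hp _ _ ?_
    intro c hc
    rw [List.mem_map] at hc
    obtain ⟨⟨k, C, i, j⟩, hc, rfl⟩ := hc
    have h1 : (k, C, i, j) ∈ D.commTerms r s := by rw [hL]; exact List.mem_cons_of_mem _ hc
    obtain ⟨h2, -, -, h3, h4, h5⟩ := commTerms_rt hch h1
    exact (le_iSup₂ (f := fun k (_ : k ∈ Rn D r s 3) => D.rootSubgroup K k) k
      ⟨h2, i, j, h3, h4, hL3 _ hc, h5⟩) (xG_mem_rootSubgroup hp.inList k _)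
  have hR32 : Rn D r s 3 ⊆ Rn D r s 2 := by
    rintro k ⟨h1, i, j, h2, h3, h4, h5⟩
    exact ⟨h1, i, j, h2, h3, by omega, h5⟩
  have hu2' : u ∈ Rn D r s 2 := ⟨hu1, 1, 1, le_rfl, le_rfl, le_rfl, fun a => by rw [hu2]; push_cast; ring⟩
  have hle32 : (⨆ k ∈ Rn D r s 3, D.rootSubgroup K k : Subgroup (GL D.Idx K)) ≤ V :=
    iSup₂_le fun k hk => le_iSup₂ (f := fun k (_ : k ∈ Rn D r s 2) => D.rootSubgroup K k) k (hR32 hk)
  have hyP : ⁅(xG hp.inList s (1 : K))⁻¹, (xG hp.inList r (1 : K))⁻¹⁆ ∈ P := by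
    refine ⟨?_, ?_⟩
    · have a1 : xG hp.inList r (1 : K) ∈ Q :=
        (le_sup_left : D.rootSubgroup K r ≤ Q) (xG_mem_rootSubgroup hp.inList r 1)
      have a2 : xG hp.inList s (1 : K) ∈ Q :=
        (le_sup_right : D.rootSubgroup K s ≤ Q) (xG_mem_rootSubgroup hp.inList s 1)
      rw [commutatorElement_def]
      exact Q.mul_mem (Q.mul_mem (Q.mul_mem (Q.inv_mem a2) (Q.inv_mem a1)) (Q.inv_mem (Q.inv_mem a2)))
        (Q.inv_mem (Q.inv_mem a1))
    · rw [hcomm, hword, wordG_cons]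
      exact mul_mem ((le_iSup₂ (f := fun k (_ : k ∈ Rn D r s 2) => D.rootSubgroup K k) u hu2')
        (xG_mem_rootSubgroup hp.inList u _)) (hle32 hrest)
  have hy3 := hP3 hyP
  rw [hcomm, hword, wordG_cons] at hy3
  have hxu : xG hp.inList u ((D.chainM r s 1 : K) * (-1) ^ 1 * 1 ^ 1) ∈ GS D K (Rn D r s 3) := by
    have h1 := (le_sup_right : (⨆ k ∈ Rn D r s 3, D.rootSubgroup K k : Subgroup (GL D.Idx K)) ≤
      GS D K (Rn D r s 3)) hrest
    have h2 := mul_mem hy3 (inv_mem h1)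
    rwa [mul_inv_cancel_right] at h2
  have hu3 := mem_of_xG_mem h (Rn_sub r s 3) (Rn_closed hch r s 3) hu1 (by
    have := chainM_ne_zero (K := K) hmp hm hu
    simpa using this) hxu
  -- heights
  obtain ⟨-, i, j, hi, hj, hij, he⟩ := hu3
  obtain ⟨w, hw1, hw2⟩ := Cfsg.Agent.Nodes.PosPair.exists_pos_pair M.toCoxeterSystem hp.isCartan hrr hsr hneg
  have hvu2 : vec D l u = (i : ℤ) • vec D l r + (j : ℤ) • vec D l s := by
    funext a
    rw [Pi.add_apply, Pi.smul_apply, Pi.smul_apply, vec_apply, vec_apply, vec_apply, he, smul_eq_mul,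
      smul_eq_mul]
  have hpos : ∀ x : Fin l → ℤ, IsRoot M.toCoxeterSystem hp.isCartan x →
      0 ≤ rep M.toCoxeterSystem hp.isCartan w x → 0 < ht (rep M.toCoxeterSystem hp.isCartan w x) := by
    intro x hx h0
    have hne0 := (hx.act w).ne_zero
    unfold ht
    refine lt_of_le_of_ne (Finset.sum_nonneg fun k _ => h0 k) (fun h1 => hne0 ?_)
    funext k
    exact (Finset.sum_eq_zero_iff_of_nonneg fun k _ => h0 k).1 h1.symm k (Finset.mem_univ k)
  have hh1 := hpos _ hrr hw1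
  have hh2 := hpos _ hsr hw2
  have hta : ∀ x y : Fin l → ℤ, ht (x + y) = ht x + ht y := fun x y => by
    unfold ht; rw [← Finset.sum_add_distrib]; rfl
  have hts : ∀ (c : ℤ) (x : Fin l → ℤ), ht (c • x) = c * ht x := fun c x => by
    unfold ht; rw [Finset.mul_sum]; rfl
  have h5 : ht (rep M.toCoxeterSystem hp.isCartan w (vec D l r)) +
      ht (rep M.toCoxeterSystem hp.isCartan w (vec D l s)) =
      (i : ℤ) * ht (rep M.toCoxeterSystem hp.isCartan w (vec D l r)) +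
      (j : ℤ) * ht (rep M.toCoxeterSystem hp.isCartan w (vec D l s)) := by
    rw [← hta, ← map_add, ← hvu, hvu2, map_add, map_smul, map_smul, hta, hts, hts]
  have hi' : (1 : ℤ) ≤ i := by exact_mod_cast hi
  have hj' : (1 : ℤ) ≤ j := by exact_mod_cast hj
  have hij' : (3 : ℤ) ≤ (i : ℤ) + j := by exact_mod_cast hij
  rcases (show (2 : ℤ) ≤ i ∨ (2 : ℤ) ≤ j by omega) with h6 | h6
  · nlinarith
  · nlinarith

end Cfsg.Agent.H650.OT
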