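import Cfsg.Agent.H650.OT.SFC
import Cfsg.Agent.H274.OT.BT

/-!
# S2539: assembly (helper650)

* `pr_self` : `⟨r, r^∨⟩ = 2`;
* `std_of_good` : a good overgroup of `T` is standard;
* `s2539_of` : if there is no least bad overgroup of `T`, then S2539 holds.
-/

set_option autoImplicit false

namespace Cfsg.Agent.H650.OT

open Cfsg Cfsg.Lie Cfsg.Lie.ChevalleyDatum
open Cfsg.Agent.ChevalleyStructure Cfsg.Agent.ChevalleyStructure.Elts
open Cfsg.Agent.H412.OT

universe u

/-- `⟨r, r^∨⟩ = 2` for all roots (a table). -/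
def prOK (D : ChevalleyDatum) : Bool :=
  (List.range D.nroots).all fun r =>
    ((List.range D.rank).map fun i => (D.coroot.getD r #[]).getD i 0 * D.cartan i r).sum == 2

theorem prOK_G2 : prOK chevG2 = true := by decide +kernel
theorem prOK_D4 : prOK chevD4 = true := by decide +kernel
theorem prOK_F4 : prOK chevF4 = true := by decide +kernel
theorem prOK_E6 : prOK chevE6 = true := by decide +kernel

/-- the part of the table from `a` to `a + n` -/
def prPart (D : ChevalleyDatum) (a n : ℕ) : Bool :=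
  (List.range' a n).all fun r =>
    ((List.range D.rank).map fun i => (D.coroot.getD r #[]).getD i 0 * D.cartan i r).sum == 2

theorem prPart_E7_0 : prPart chevE7 0 63 = true := by decide +kernel
theorem prPart_E7_63 : prPart chevE7 63 63 = true := by decide +kernel

theorem prOK_E7 : prOK chevE7 = true := by
  have e : List.range (chevE7).nroots = List.range' 0 63 ++ List.range' 63 63 := by
    decide +kernel
  rw [prOK, e]
  simp only [List.all_append, Bool.and_eq_true]
  exact ⟨prPart_E7_0, prPart_E7_63⟩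

theorem prPart_E8_0 : prPart chevE8 0 40 = true := by decide +kernel
theorem prPart_E8_40 : prPart chevE8 40 40 = true := by decide +kernel
theorem prPart_E8_80 : prPart chevE8 80 40 = true := by decide +kernel
theorem prPart_E8_120 : prPart chevE8 120 40 = true := by decide +kernel
theorem prPart_E8_160 : prPart chevE8 160 40 = true := by decide +kernel
theorem prPart_E8_200 : prPart chevE8 200 40 = true := by decide +kernel

theorem prOK_E8 : prOK chevE8 = true := by
  have e : List.range (chevE8).nroots = List.range' 0 40 ++ List.range' 40 40 ++ List.range' 80 40 ++ List.range' 120 40 ++ List.range' 160 40 ++ List.range' 200 40 := by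
    decide +kernel
  rw [prOK, e]
  simp only [List.all_append, Bool.and_eq_true]
  exact ⟨⟨⟨⟨⟨prPart_E8_0, prPart_E8_40⟩, prPart_E8_80⟩, prPart_E8_120⟩, prPart_E8_160⟩, prPart_E8_200⟩

theorem prOK_of {D : ChevalleyDatum} (h : D ∈ [chevG2, chevD4, chevF4, chevE6, chevE7, chevE8]) :
    prOK D = true := by
  simp only [List.mem_cons, List.not_mem_nil, or_false] at h
  rcases h with rfl | rfl | rfl | rfl | rfl | rfl
  exacts [prOK_G2, prOK_D4, prOK_F4, prOK_E6, prOK_E7, prOK_E8]

variable {D : ChevalleyDatum} {K : Type u} [Field K]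

theorem pr_self (h : D ∈ [chevG2, chevD4, chevF4, chevE6, chevE7, chevE8]) {r : ℕ} (hr : r < D.nroots) :
    pr D r r = 2 := by
  have h1 := prOK_of h
  unfold prOK at h1
  rw [List.all_eq_true] at h1
  have h2 := h1 r (List.mem_range.2 hr)
  rw [beq_iff_eq] at h2
  rw [pr, TorusRange.pairing_def, ← h2]
  rfl

variable [Fintype K] {p : ℕ} [Fact p.Prime] [CharP K p]

theorem exists_sq_ne (hK : 13 ≤ Fintype.card K) : ∃ c : K, c ≠ 0 ∧ c ^ (2 : ℤ) ≠ 1 := by
  classical
  by_contra hcon
  push Not at hcon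
  have h1 : (Finset.univ : Finset K) ⊆ {0, 1, -1} := by
    intro c _
    by_cases hc : c = 0
    · simp [hc]
    · have h2 := hcon c hc
      have h3 : c ^ 2 = 1 := by exact_mod_cast h2
      rcases eq_or_eq_neg_of_sq_eq_sq c 1 (by rw [h3, one_pow]) with h4 | h4 <;> simp [h4]
  have h2 := Finset.card_le_card h1
  rw [Finset.card_univ] at h2
  have h3 : ({0, 1, -1} : Finset K).card ≤ 3 := Finset.card_le_three
  omega

/-- **A good overgroup of `T` is standard.** -/
theorem std_of_good (h : Hyp K p D) {F : Subgroup (GL D.Idx K)} (hTF : D.diagonalSubgroup K ≤ F)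
    (hFG : F ≤ D.group K) (hg : Good D K F) : Std D K F := by
  have hD := h.inList
  have hnT : F ⊓ Subgroup.normalizer (D.diagonalSubgroup K : Set (GL D.Idx K)) ≤
      Subgroup.normalizer (GS D K (SF D K F) : Set (GL D.Idx K)) := by
    have key : ∀ g ∈ F ⊓ Subgroup.normalizer (D.diagonalSubgroup K : Set (GL D.Idx K)),
        ∀ x ∈ GS D K (SF D K F), g * x * g⁻¹ ∈ GS D K (SF D K F) := by
      intro g hg x hx
      have h1 : GS D K (SF D K F) ≤ (GS D K (SF D K F)).comap (MulAut.conj g).toMonoidHom := by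
        refine sup_le ?_ ?_
        · intro t ht
          exact (le_sup_left : D.diagonalSubgroup K ≤ GS D K (SF D K F))
            ((Subgroup.mem_normalizer_iff.1 hg.2 t).1 ht)
        · intro y hy
          exact (le_sup_right : DF D K F ≤ GS D K (SF D K F))
            ((Subgroup.mem_normalizer_iff.1 (H274.OT.norm_le_normalizer_DF h hFG hg) y).1 hy)
      exact h1 hx
    intro g hg
    rw [Subgroup.mem_normalizer_iff]
    intro x
    refine ⟨key g hg x, fun hx => ?_⟩
    have h2 := key g⁻¹ (inv_mem hg) _ hx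
    have h3 : g⁻¹ * (g * x * g⁻¹) * g⁻¹⁻¹ = x := by group
    rwa [h3] at h2
  refine ⟨SF D K F, ⟨fun r hr => hr.1, SF_closed h hFG, sup_le hTF (DF_le F), ?_⟩, ?_⟩
  · intro x hx
    obtain ⟨d, hd, n, hn, hn', rfl⟩ := hg x hx
    exact mul_mem (Subgroup.le_normalizer ((le_sup_right : DF D K F ≤ GS D K (SF D K F)) hd)) (hnT ⟨hn, hn'⟩)
  · rintro S' ⟨hS1, hS2, hS3, hS4⟩
    apply Set.Subset.antisymm
    · intro r hr
      exact ⟨hS1 hr, ((le_iSup₂ (f := fun r (_ : r ∈ S') => D.rootSubgroup K r) r hr).trans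
        le_sup_right).trans hS3⟩
    · intro r hr
      obtain ⟨c, hc0, hc⟩ := exists_sq_ne h.card
      have ht : hG hD r c ∈ GS D K S' := (le_sup_left : D.diagonalSubgroup K ≤ GS D K S') (hG_mem hD hr.1 hc0)
      have hx : xG hD r (1 : K) ∈ F := hr.2 (xG_mem_rootSubgroup hD r 1)
      have h1 : xG hD r (1 : K) * hG hD r c * (xG hD r (1 : K))⁻¹ ∈ GS D K S' :=
        (Subgroup.mem_normalizer_iff.1 (hS4 hx) _).1 ht
      have h2 := mul_mem h1 (inv_mem ht)
      have h3 : xG hD r (1 : K) * hG hD r c * (xG hD r (1 : K))⁻¹ * (hG hD r c)⁻¹ =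
          xG hD r (1 - c ^ (2 : ℤ)) := by
        have h4 : hG hD r c * (xG hD r (1 : K))⁻¹ * (hG hD r c)⁻¹ = xG hD r (-(c ^ (2 : ℤ))) := by
          rw [xG_inv, hG_conj_xG hD hr.1 hr.1 hc0, pr_self h.mem hr.1]
          congr 1
          ring
        rw [sub_eq_add_neg, ← xG_add, ← h4]
        group
      rw [h3] at h2
      exact mem_of_xG_mem h hS1 hS2 hr.1 (sub_ne_zero.2 (Ne.symm hc)) h2

/-- **S2539 from "there is no least bad overgroup of `T`".** -/
theorem s2539_of (h : Hyp K p D) (hmb : ∀ F₀ : Subgroup (GL D.Idx K), ¬ MinBad D K F₀)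
    (F : Subgroup (GL D.Idx K)) (hTF : D.diagonalSubgroup K ≤ F) (hFG : F ≤ D.group K) :
    ∃! S : Set ℕ, S ⊆ {r | r < D.nroots} ∧ (∀ r ∈ S, ∀ s ∈ S, ∀ u, D.chainRoot r s 1 = some u → u ∈ S) ∧
      (D.diagonalSubgroup K ⊔ ⨆ r ∈ S, D.rootSubgroup K r) ≤ F ∧ F ≤ Subgroup.normalizer
        ((D.diagonalSubgroup K ⊔ ⨆ r ∈ S, D.rootSubgroup K r : Subgroup (GL D.Idx K)) : Set (GL D.Idx K)) :=
  (Std_iff F).1 (std_of_good h hTF hFG (H274.OT.good_of_no_minBad hmb hTF hFG))

end Cfsg.Agent.H650.OT
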