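import Cfsg.Agent.H650.OT.Tab
import Cfsg.Agent.ChevalleyStructure.XColumns

/-!
# S2539, 0.1: the submodule `L(S)` of the adjoint module (helper650)

`InL S v` : the coordinates of `v` at `e_u`, `u ∉ S`, vanish.
* `GS_le_stab` : for closed `S` the group `G(S)` preserves `L(S)`;
* `mem_of_xG_mem` : `x_r(a) ∈ G(S)`, `a ≠ 0` ⇒ `r ∈ S`.
-/

set_option autoImplicit false

namespace Cfsg.Agent.H650.OT

open Cfsg Cfsg.Lie Cfsg.Lie.ChevalleyDatum Matrix
open Cfsg.Agent.ChevalleyStructure Cfsg.Agent.ChevalleyStructure.Elts Cfsg.Agent.ChevalleyStructure.RootVec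
  Cfsg.Agent.ChevalleyStructure.XColumns
open Cfsg.Agent.H412.OT

universe u

variable {D : ChevalleyDatum} {K : Type u} [Field K]

/-- the vectors of `L(S) = L₀ + ∑_S K e_s` -/
def InL (S : Set ℕ) (v : D.Idx → K) : Prop := ∀ w : Fin D.nroots, (w : ℕ) ∉ S → v (Sum.inr w) = 0

theorem InL.add {S : Set ℕ} {v w : D.Idx → K} (hv : InL S v) (hw : InL S w) : InL S (v + w) := by
  intro u hu
  rw [Pi.add_apply, hv u hu, hw u hu, add_zero]

theorem InL.smul {S : Set ℕ} {v : D.Idx → K} (a : K) (hv : InL S v) : InL S (a • v) := by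
  intro u hu
  rw [Pi.smul_apply, hv u hu, smul_zero]

theorem InL.sub {S : Set ℕ} {v w : D.Idx → K} (hv : InL S v) (hw : InL S w) : InL S (v - w) := by
  intro u hu
  rw [Pi.sub_apply, hv u hu, hw u hu, sub_zero]

theorem inL_ev {S : Set ℕ} {s : ℕ} (hs : s ∈ S) : InL S (ev D K s) := by
  intro u hu
  rw [ev_inr, if_neg]
  rintro rfl
  exact hu hs

theorem inL_hv {S : Set ℕ} (i : ℕ) : InL S (hv D K i) := fun _ _ => rfl

theorem inL_corv {S : Set ℕ} (i : ℕ) : InL S (corv D K i) := fun _ _ => rfl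

theorem inL_listSum {S : Set ℕ} {ι : Type*} (L : List ι) (f : ι → D.Idx → K) (h : ∀ q ∈ L, InL S (f q)) :
    InL S (L.map f).sum := by
  induction L with
  | nil => intro u _; rfl
  | cons a L ih =>
    rw [List.map_cons, List.sum_cons]
    exact (h a List.mem_cons_self).add (ih fun q hq => h q (List.mem_cons_of_mem _ hq))

theorem row_nodup (hD : InList D) (r : ℕ) : ((XColumns.row D r).map Prod.fst).Nodup := by
  have h := row_pairwise (RootVecTab.checked_of_mem hD) r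
  exact h.imp fun hab => ne_of_lt hab

/-- A matrix preserves `L(S)` if it maps the basis vectors of `L(S)` into `L(S)`. -/
theorem inL_mulVec {S : Set ℕ} {M : Matrix D.Idx D.Idx K}
    (h1 : ∀ i < D.rank, InL S (M *ᵥ hv D K i)) (h2 : ∀ s ∈ S, InL S (M *ᵥ ev D K s)) {v : D.Idx → K}
    (hv' : InL S v) : InL S (M *ᵥ v) := by
  intro w hw
  rw [Matrix.mulVec, dotProduct]
  refine Finset.sum_eq_zero fun b _ => ?_
  rcases b with i | u
  · have h3 := h1 i i.2 w hw
    rw [mulVec_hv _ i.2] at h3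
    rw [show (Sum.inl i : D.Idx) = Sum.inl ⟨(i : ℕ), i.2⟩ from rfl, h3, zero_mul]
  · by_cases hu : (u : ℕ) ∈ S
    · have h3 := h2 u hu w hw
      rw [mulVec_ev _ u.2] at h3
      rw [show (Sum.inr u : D.Idx) = Sum.inr ⟨(u : ℕ), u.2⟩ from rfl, h3, zero_mul]
    · rw [hv' u hu, mul_zero]

theorem inL_x (hD : InList D) {m : ℕ} (hm : consOK D m = true) {S : Set ℕ} (hS : S ⊆ {r | r < D.nroots})
    (hcl : Closed D S) {s : ℕ} (hs : s ∈ S) (t : K) {v : D.Idx → K} (hv' : InL S v) :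
    InL S (D.x K s t *ᵥ v) := by
  have hs' : s < D.nroots := hS hs
  have hch := RootVecTab.checked_of_mem hD
  refine inL_mulVec (fun i hi => ?_) (fun u hu => ?_) hv'
  · rw [x_mulVec_hv hs' hi]
    exact (inL_hv i).sub ((inL_ev hs).smul _)
  · have hu' : u < D.nroots := hS hu
    by_cases h1 : u = s
    · subst h1
      rw [x_mulVec_ev_self hs']
      exact inL_ev hs
    by_cases h2 : u = D.neg s
    · subst h2
      rw [x_mulVec_ev_neg hs' hu' h1]
      exact ((inL_ev hu).add ((inL_corv s).smul _)).sub ((inL_ev hs).smul _)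
    · rw [x_mulVec_ev hs' hu' h1 h2 (row_nodup hD s)]
      refine (inL_ev hu).add (inL_listSum _ _ fun q hq => ?_)
      refine (inL_ev ?_).smul _
      obtain ⟨q1, k⟩ := q
      rw [List.mk_mem_zipIdx_iff_getElem?] at hq
      exact mem_of_closed hm hcl hs hu k q1 hq

/-- The stabiliser of `L(S)`. -/
def Stab (D : ChevalleyDatum) (K : Type u) [Field K] (S : Set ℕ) : Subgroup (GL D.Idx K) where
  carrier := {g | (∀ v, InL S v → InL S ((g : Matrix D.Idx D.Idx K) *ᵥ v)) ∧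
    ∀ v, InL S v → InL S (((g⁻¹ : GL D.Idx K) : Matrix D.Idx D.Idx K) *ᵥ v)}
  one_mem' := by
    refine ⟨fun v hv => ?_, fun v hv => ?_⟩
    · rw [Units.val_one, Matrix.one_mulVec]; exact hv
    · rw [inv_one, Units.val_one, Matrix.one_mulVec]; exact hv
  mul_mem' := by
    rintro a b ⟨ha, ha'⟩ ⟨hb, hb'⟩
    refine ⟨fun v hv => ?_, fun v hv => ?_⟩
    · rw [Units.val_mul, ← Matrix.mulVec_mulVec]; exact ha _ (hb _ hv)
    · rw [_root_.mul_inv_rev, Units.val_mul, ← Matrix.mulVec_mulVec]; exact hb' _ (ha' _ hv)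
  inv_mem' := by
    rintro a ⟨ha, ha'⟩
    refine ⟨ha', fun v hv => ?_⟩
    rw [inv_inv]
    exact ha v hv

theorem GS_le_stab (hD : InList D) {m : ℕ} (hm : consOK D m = true) {S : Set ℕ} (hS : S ⊆ {r | r < D.nroots})
    (hcl : Closed D S) : GS D K S ≤ Stab D K S := by
  refine sup_le ?_ (iSup₂_le fun s hs => ?_)
  · have key : ∀ t ∈ D.diagonalSubgroup K, ∀ v : D.Idx → K, InL S v →
        InL S ((t : Matrix D.Idx D.Idx K) *ᵥ v) := by
      intro t ht v hv w hw
      rw [coe_tor hD ht, Matrix.mulVec_diagonal, hv w hw, mul_zero]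
    exact fun t ht => ⟨key t ht, key t⁻¹ (inv_mem ht)⟩
  · intro g hg
    obtain ⟨a, rfl⟩ := (mem_rootSubgroup_iff hD s g).1 hg
    refine ⟨fun v hv => ?_, fun v hv => ?_⟩
    · rw [coe_xG]
      exact inL_x hD hm hS hcl hs a hv
    · rw [xG_inv, coe_xG]
      exact inL_x hD hm hS hcl hs _ hv

/-- **`x_r(a) ∈ G(S)` with `a ≠ 0` only for `r ∈ S`.** -/
theorem mem_of_xG_mem [Fintype K] {p : ℕ} [Fact p.Prime] [CharP K p] (h : Hyp K p D) {S : Set ℕ}
    (hS : S ⊆ {r | r < D.nroots}) (hcl : Closed D S) {r : ℕ} (hr : r < D.nroots) {a : K} (ha : a ≠ 0)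
    (hx : xG h.inList r a ∈ GS D K S) : r ∈ S := by
  obtain ⟨m, hmp, hm, hm'⟩ := exists_bound h
  obtain ⟨i, hi, hc⟩ := exists_cartan (K := K) hmp hm' hr
  have h1 := (GS_le_stab h.inList hm hS hcl hx).1 (hv D K i) (inL_hv i)
  rw [coe_xG, x_mulVec_hv hr hi] at h1
  by_contra hcon
  have h2 := h1 ⟨r, hr⟩ hcon
  rw [Pi.sub_apply, hv_inr, Pi.smul_apply, ev_inr, if_pos rfl, smul_eq_mul, mul_one, zero_sub,
    neg_eq_zero] at h2
  exact mul_ne_zero hc ha h2

theorem mem_of_root_le [Fintype K] {p : ℕ} [Fact p.Prime] [CharP K p] (h : Hyp K p D) {S : Set ℕ}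
    (hS : S ⊆ {r | r < D.nroots}) (hcl : Closed D S) {r : ℕ} (hr : r < D.nroots)
    (hx : D.rootSubgroup K r ≤ GS D K S) : r ∈ S :=
  mem_of_xG_mem h hS hcl hr one_ne_zero (hx (xG_mem_rootSubgroup h.inList r 1))

end Cfsg.Agent.H650.OT
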