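import Cfsg.Agent.H412.OT.Defs

/-!
# S2539, 0.1: facts on the tables (helper650)

* `chain_step` : the entries of a chain are consecutive; `Nz` : `chainM r s 1 ≠ 0` in `K`; `exists_cartan` : for every
  root `r` some `⟨r, p_i^∨⟩ ≠ 0` in `K`.
-/

set_option autoImplicit false

namespace Cfsg.Agent.H650.OT

open Cfsg Cfsg.Lie Cfsg.Lie.ChevalleyDatum
open Cfsg.Agent.ChevalleyStructure Cfsg.Agent.ChevalleyStructure.Elts Cfsg.Agent.ChevalleyStructure.RootVec
open Cfsg.Agent.H412.OT

universe u

def chk2 (D : ChevalleyDatum) (r : ℕ) : List (ℕ × ℤ) → Bool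
  | [] => true
  | [_] => true
  | q :: q' :: l => (D.chainRoot r q.1 1 == some q'.1) && chk2 D r (q' :: l)

def chk1 (m : ℕ) : List (ℕ × ℤ) → Bool
  | [] => true
  | q :: _ => decide (q.2 ≠ 0) && Nat.ble q.2.natAbs m

/-- the chains are consecutive, the first coefficients are nonzero of size at most `m` -/
def consOK (D : ChevalleyDatum) (m : ℕ) : Bool :=
  D.chain.toList.zipIdx.all fun rw => rw.1.toList.all fun e => chk1 m e.2.toList && chk2 D rw.2 e.2.toList

def cartOK (D : ChevalleyDatum) (m : ℕ) : Bool :=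
  (List.range D.nroots).all fun r => (List.range D.rank).any fun i =>
    decide (D.cartan i r ≠ 0) && Nat.ble (D.cartan i r).natAbs m

theorem consOK_G2 : consOK chevG2 3 = true := by decide +kernel
theorem consOK_D4 : consOK chevD4 1 = true := by decide +kernel
theorem consOK_F4 : consOK chevF4 2 = true := by decide +kernel
theorem consOK_E6 : consOK chevE6 1 = true := by decide +kernel
theorem consOK_E7 : consOK chevE7 1 = true := by decide +kernel
theorem consOK_E8 : consOK chevE8 1 = true := by decide +kernel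
theorem cartOK_G2 : cartOK chevG2 3 = true := by decide +kernel
theorem cartOK_D4 : cartOK chevD4 1 = true := by decide +kernel
theorem cartOK_F4 : cartOK chevF4 2 = true := by decide +kernel
theorem cartOK_E6 : cartOK chevE6 1 = true := by decide +kernel
theorem cartOK_E7 : cartOK chevE7 1 = true := by decide +kernel
theorem cartOK_E8 : cartOK chevE8 1 = true := by decide +kernel

variable {D : ChevalleyDatum}

theorem mem_zipIdx {r : ℕ} (hr : r < D.chain.toList.length) :
    (D.chain.getD r #[], r) ∈ D.chain.toList.zipIdx := by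
  rw [List.mk_mem_zipIdx_iff_getElem?, getD_toList D.chain #[] hr]
  exact List.getElem?_eq_getElem hr

theorem chk2_sound {r : ℕ} : ∀ (l : List (ℕ × ℤ)) (k : ℕ) (q q' : ℕ × ℤ), chk2 D r l = true →
    l[k]? = some q → l[k + 1]? = some q' → D.chainRoot r q.1 1 = some q'.1 := by
  intro l
  induction l with
  | nil => intro k q q' _ h; simp at h
  | cons a l ih =>
    intro k q q' hc h1 h2
    cases l with
    | nil =>
      rw [List.getElem?_cons_succ] at h2
      simp at h2
    | cons b l =>
      rw [chk2, Bool.and_eq_true] at hc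
      cases k with
      | zero =>
        rw [List.getElem?_cons_zero] at h1
        rw [List.getElem?_cons_succ, List.getElem?_cons_zero] at h2
        cases h1
        cases h2
        simpa using hc.1
      | succ k =>
        rw [List.getElem?_cons_succ] at h1 h2
        exact ih k q q' hc.2 h1 h2

theorem chk_entry {m : ℕ} (h : consOK D m = true) (r s : ℕ) :
    chk1 m (D.chainEntry r s) = true ∧ chk2 D r (D.chainEntry r s) = true := by
  by_cases h0 : D.chainEntry r s = []
  · rw [h0]
    exact ⟨rfl, rfl⟩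
  obtain ⟨e, he, -, h1⟩ := chainEntry_eq_some (D := D) r s h0
  have hr : r < D.chain.toList.length := by
    by_contra hr
    have : D.chain.getD r #[] = #[] := by
      rw [Array.getD_eq_getD_getElem?, Array.getElem?_eq_none (by rw [Array.length_toList] at hr; omega)]
      rfl
    rw [row_def, this] at he
    simp at he
  have h3 := List.all_eq_true.1 (List.all_eq_true.1 h _ (mem_zipIdx hr)) e he
  rw [Bool.and_eq_true] at h3
  rw [h1]
  exact h3

theorem mem_of_closed {m : ℕ} (h : consOK D m = true) {S : Set ℕ} (hS : Closed D S) {r s : ℕ} (hr : r ∈ S)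
    (hs : s ∈ S) : ∀ (k : ℕ) (q : ℕ × ℤ), (D.chainEntry r s)[k]? = some q → q.1 ∈ S := by
  have h2 := (chk_entry h r s).2
  intro k
  induction k with
  | zero =>
    intro q hq
    refine hS r hr s hs q.1 ?_
    change ((D.chainEntry r s)[1 - 1]?).map Prod.fst = some q.1
    rw [Nat.sub_self, hq]
    rfl
  | succ k ih =>
    intro q hq
    obtain ⟨q0, hq0⟩ : ∃ q0, (D.chainEntry r s)[k]? = some q0 := by
      have h3 : k + 1 < (D.chainEntry r s).length := by
        by_contra hcon
        rw [List.getElem?_eq_none (by omega)] at hq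
        simp at hq
      exact ⟨_, List.getElem?_eq_getElem (by omega)⟩
    exact hS r hr q0.1 (ih q0 hq0) q.1 (chk2_sound _ k q0 q h2 hq0 hq)

section field

variable {K : Type u} [Field K] {p : ℕ}

theorem intCast_ne_zero [CharP K p] {m : ℕ} (hm : m < p) {c : ℤ} (hc : c ≠ 0) (hcm : c.natAbs ≤ m) :
    (c : K) ≠ 0 := by
  intro h
  rw [CharP.intCast_eq_zero_iff K p] at h
  have h1 := Int.natAbs_dvd_natAbs.2 h
  have h2 := Nat.le_of_dvd (Int.natAbs_pos.2 hc) h1
  rw [Int.natAbs_natCast] at h2
  omega

theorem exists_bound [Fintype K] [Fact p.Prime] (h : Hyp K p D) :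
    ∃ m < p, consOK D m = true ∧ cartOK D m = true := by
  have hp := (Fact.out : p.Prime).two_le
  have hm := h.mem
  have h2 := h.ne2
  have h3 := h.ne3
  simp only [List.mem_cons, List.not_mem_nil, or_false] at hm h2
  rcases hm with rfl | rfl | rfl | rfl | rfl | rfl
  · have h4 := h2 (Or.inl rfl)
    have h5 := h3 rfl
    exact ⟨3, by omega, consOK_G2, cartOK_G2⟩
  · exact ⟨1, by omega, consOK_D4, cartOK_D4⟩
  · have h4 := h2 (Or.inr (Or.inr rfl))
    exact ⟨2, by omega, consOK_F4, cartOK_F4⟩
  · exact ⟨1, by omega, consOK_E6, cartOK_E6⟩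
  · exact ⟨1, by omega, consOK_E7, cartOK_E7⟩
  · exact ⟨1, by omega, consOK_E8, cartOK_E8⟩

/-- The first coefficient of a chain is nonzero in `K`. -/
theorem chainM_ne_zero [CharP K p] {m : ℕ} (hm : m < p) (h : consOK D m = true) {r s u : ℕ}
    (hu : D.chainRoot r s 1 = some u) : (D.chainM r s 1 : K) ≠ 0 := by
  have h1 := (chk_entry h r s).1
  have e1 : D.chainRoot r s 1 = ((D.chainEntry r s)[0]?).map Prod.fst := rfl
  have e2 : D.chainM r s 1 = (((D.chainEntry r s)[0]?).map Prod.snd).getD 0 := rfl
  rw [e1] at hu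
  rcases hE : D.chainEntry r s with _ | ⟨q, L⟩
  · rw [hE] at hu
    simp at hu
  · rw [hE] at h1
    rw [e2, hE, List.getElem?_cons_zero, Option.map_some, Option.getD_some]
    rw [chk1, Bool.and_eq_true] at h1
    exact intCast_ne_zero hm (by simpa using h1.1) (Nat.le_of_ble_eq_true h1.2)

theorem exists_cartan [CharP K p] {m : ℕ} (hm : m < p) (h : cartOK D m = true) {r : ℕ} (hr : r < D.nroots) :
    ∃ i < D.rank, (D.cartan i r : K) ≠ 0 := by
  have h1 := List.all_eq_true.1 h r (List.mem_range.2 hr)
  obtain ⟨i, hi, h2⟩ := List.any_eq_true.1 h1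
  rw [Bool.and_eq_true] at h2
  exact ⟨i, List.mem_range.1 hi, intCast_ne_zero hm (by simpa using h2.1) (Nat.le_of_ble_eq_true h2.2)⟩

end field

end Cfsg.Agent.H650.OT
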